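import Mathlib

/-!
# The algebra behind the Feit–Higman theorem

Two real matrices `S`, `T` with `S² = a + (a-1) S`, `T² = b + (b-1) T`, a braid relation of length
`n` and traceless alternating products force `n ∈ {2, 3, 4, 6, 8}` (Kilmoyer–Solomon style argument:
the Christoffel–Darboux kernels give quasi-idempotents, whose traces are integral multiples).
-/

set_option autoImplicit false

namespace CfsgLib.FH

open Real Finset Matrix

variable {X : Type*} [Fintype X] [DecidableEq X]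

theorem trace_idem {e : Matrix X X ℝ} (h : e * e = e) : ∃ n : ℕ, e.trace = n := by
  have h1 : IsIdempotentElem (Matrix.toLin' e) := by
    rw [IsIdempotentElem, Module.End.mul_eq_comp, ← Matrix.toLin'_mul, h]
  exact ⟨_, by rw [← Matrix.trace_toLin'_eq, (LinearMap.IsIdempotentElem.isProj_range _ h1).trace]⟩

theorem trace_quasi_idem {k : Matrix X X ℝ} {κ : ℝ} (h : k * k = κ • k) :
    κ = 0 ∨ ∃ n : ℕ, k.trace = n * κ := by
  by_cases h0 : κ = 0
  · exact Or.inl h0
  obtain ⟨n, hn⟩ := trace_idem (e := κ⁻¹ • k) (by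
    rw [smul_mul_smul_comm, h, smul_smul, mul_assoc, inv_mul_cancel₀ h0, mul_one])
  refine Or.inr ⟨n, ?_⟩
  rw [trace_smul, smul_eq_mul] at hn
  rw [← hn]
  field_simp

theorem gauss {x P : Matrix X X ℝ} {q : ℕ → Matrix X X ℝ} {z : ℕ → ℝ} {θ c h : ℝ} {M : ℕ} {C : ℚ}
    (hq : ∀ i, q (i + 1) * x = q (i + 2) + q i) (hz : ∀ i, θ * z (i + 1) = z (i + 2) + z i)
    (hqM : q (M + 1) = 0) (hzM : z (M + 1) = 0) (h0 : z 0 • q 1 = z 1 • q 0) (hz1 : z 1 ≠ 0)
    (hM : 1 ≤ M) (ht1 : (q 1).trace = C) (hC : C ≠ 0) (ht : ∀ i, 2 ≤ i → i ≤ M → (q i).trace = 0)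
    (hP : ∀ i, q i * P = c • q i) (hk : ∀ k, k * x = θ • k → k * P = c • k → k * q 1 = h • k) :
    ∃ r : ℚ, h * ∑ i ∈ range M, z (i + 1) ^ 2 = r * z 1 ^ 2 := by
  set k : Matrix X X ℝ := ∑ i ∈ range M, z (i + 1) • q (i + 1) with hkdef
  have tel : ∀ N, (∑ i ∈ range N, z (i + 1) • q (i + 1)) * x =
      θ • (∑ i ∈ range N, z (i + 1) • q (i + 1)) + (z N • q (N + 1) - z (N + 1) • q N) := by
    intro N
    induction N with
    | zero => simp [h0]
    | succ N ih =>
      rw [sum_range_succ, add_mul, ih, smul_mul_assoc, hq, smul_add, smul_add, smul_smul, hz,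
        add_smul]
      abel
  have hkx : k * x = θ • k := by rw [hkdef, tel, hqM, hzM]; simp
  have hkP : k * P = c • k := by
    rw [hkdef, sum_mul, smul_sum]
    exact sum_congr rfl fun i _ => by rw [smul_mul_assoc, hP, smul_comm]
  have h1 := hk k hkx hkP
  have hki : ∀ i, k * q i = (h / z 1 * z i) • k ∧ k * q (i + 1) = (h / z 1 * z (i + 1)) • k := by
    intro i
    induction i with
    | zero =>
      refine ⟨?_, by rw [h1]; congr 1; field_simp⟩
      have h2 : q 0 = (z 0 / z 1) • q 1 := by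
        rw [div_eq_inv_mul, mul_smul, h0, smul_smul, inv_mul_cancel₀ hz1, one_smul]
      rw [h2, mul_smul_comm, h1, smul_smul]
      congr 1
      field_simp
    | succ i ih =>
      refine ⟨ih.2, ?_⟩
      have h2 : q (i + 2) = q (i + 1) * x - q i := by rw [hq]; abel
      have h3 : z (i + 2) = θ * z (i + 1) - z i := by rw [hz]; ring
      rw [h2, mul_sub, ← mul_assoc, ih.1, ih.2, smul_mul_assoc, hkx, smul_smul, ← sub_smul, h3]
      congr 1
      ring
  have hkk : k * k = (h / z 1 * ∑ i ∈ range M, z (i + 1) ^ 2) • k := by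
    conv_lhs => rw [hkdef, mul_sum]
    rw [mul_sum, sum_smul]
    refine sum_congr rfl fun i _ => ?_
    rw [mul_smul_comm, ← hkdef, (hki i).2, smul_smul]
    congr 1
    ring
  have htr : k.trace = z 1 * C := by
    obtain ⟨M, rfl⟩ := Nat.exists_eq_add_of_le' hM
    rw [hkdef, trace_sum, sum_range_succ', sum_eq_zero, zero_add, trace_smul, ht1, smul_eq_mul]
    intro i hi
    rw [trace_smul, ht _ (by omega) (by have := mem_range.1 hi; omega), smul_zero]
  rcases trace_quasi_idem hkk with h2 | ⟨n, hn⟩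
  · refine ⟨0, ?_⟩
    have : h * ∑ i ∈ range M, z (i + 1) ^ 2 = z 1 * (h / z 1 * ∑ i ∈ range M, z (i + 1) ^ 2) := by
      field_simp
    rw [this, h2]
    simp
  · have hC' : (C : ℝ) ≠ 0 := by exact_mod_cast hC
    rw [htr] at hn
    have hn0 : (n : ℝ) ≠ 0 := by
      rintro h3
      rw [h3, zero_mul] at hn
      exact mul_ne_zero hz1 hC' hn
    refine ⟨C / n, ?_⟩
    push_cast
    field_simp at hn ⊢
    linarith

theorem gauss' {x P : Matrix X X ℝ} {p : ℕ → Matrix X X ℝ} {z : ℕ → ℝ} {ρ θ c h : ℝ} {M : ℕ}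
    {C : ℚ} (hρ : ρ ≠ 0)
    (hq : ∀ i, p (i + 1) * x = p (i + 2) + ρ ^ 2 • p i) (hz : ∀ i, θ * z (i + 1) = z (i + 2) + z i)
    (hqM : p (M + 1) = 0) (hzM : z (M + 1) = 0) (h0 : z 0 • p 1 = (z 1 * ρ) • p 0) (hz1 : z 1 ≠ 0)
    (hM : 1 ≤ M) (ht1 : (p 1).trace = C) (hC : C ≠ 0) (ht : ∀ i, 2 ≤ i → i ≤ M → (p i).trace = 0)
    (hP : ∀ i, p i * P = c • p i)
    (hk : ∀ k, k * x = (ρ * θ) • k → k * P = c • k → k * p 1 = h • k) :
    ∃ r : ℚ, h * ∑ i ∈ range M, z (i + 1) ^ 2 = r * z 1 ^ 2 := by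
  have e1 : (ρ⁻¹ ^ 1 * ρ) • p 1 = p 1 := by rw [pow_one, inv_mul_cancel₀ hρ, one_smul]
  refine gauss (x := ρ⁻¹ • x) (P := P) (q := fun i => (ρ⁻¹ ^ i * ρ) • p i) (c := c) (C := C)
    (fun i => ?_) hz (by simp [hqM]) hzM ?_ hz1 hM (by rw [e1, ht1]) hC
    (fun i h1 h2 => by rw [trace_smul, ht i h1 h2, smul_zero])
    (fun i => by rw [smul_mul_assoc, hP, smul_comm]) fun k h1 h2 => ?_
  · rw [smul_mul_smul_comm, hq, smul_add, smul_smul]
    congr 2
    · ring
    · calc _ = ρ⁻¹ ^ i * ρ * (ρ⁻¹ * ρ) ^ 2 := by ring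
        _ = _ := by rw [inv_mul_cancel₀ hρ]; ring
  · rw [e1, h0, smul_smul]
    simp
  · rw [e1]
    refine hk k ?_ h2
    rw [mul_smul_comm] at h1
    rw [mul_smul, ← h1, smul_smul, mul_inv_cancel₀ hρ, one_smul]

theorem sin_rec (η φ : ℝ) (i : ℕ) : 2 * cos φ * sin ((((i + 1 : ℕ) : ℝ) + η) * φ) =
    sin ((((i + 2 : ℕ) : ℝ) + η) * φ) + sin (((i : ℝ) + η) * φ) := by
  have h1 : (((i + 2 : ℕ) : ℝ) + η) * φ = (((i + 1 : ℕ) : ℝ) + η) * φ + φ := by push_cast; ring
  have h2 : ((i : ℝ) + η) * φ = (((i + 1 : ℕ) : ℝ) + η) * φ - φ := by push_cast; ring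
  rw [h1, h2, sin_add, sin_sub]
  ring

theorem sin_sq_sum (η φ : ℝ) (M : ℕ) :
    4 * sin φ * ∑ i ∈ range M, sin ((((i + 1 : ℕ) : ℝ) + η) * φ) ^ 2 =
      2 * M * sin φ - (sin ((2 * M + 1 + 2 * η) * φ) - sin ((1 + 2 * η) * φ)) := by
  induction M with
  | zero => simp
  | succ M ih =>
    rw [sum_range_succ, mul_add, ih]
    have h1 : (2 * ((M + 1 : ℕ) : ℝ) + 1 + 2 * η) * φ =
        2 * ((((M + 1 : ℕ) : ℝ) + η) * φ) + φ := by push_cast; ring
    have h2 : (2 * (M : ℝ) + 1 + 2 * η) * φ = 2 * ((((M + 1 : ℕ) : ℝ) + η) * φ) - φ := by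
      push_cast; ring
    rw [h1, h2, sin_add, sin_sub, cos_two_mul, cos_sq']
    push_cast
    ring

section Hecke

variable {S T : Matrix X X ℝ} {a b : ℝ}

/-- The elements `P (TS)^i P`, `P = S + 1`. -/
def gam (S T : Matrix X X ℝ) (i : ℕ) : Matrix X X ℝ := (S + 1) * (T * S) ^ i * (S + 1)

theorem mul_add_one (hS : S * S = a • (1 : Matrix X X ℝ) + (a - 1) • S) :
    S * (S + 1) = a • (S + 1) := by
  rw [mul_add, hS, mul_one]
  module

theorem add_one_mul' (hS : S * S = a • (1 : Matrix X X ℝ) + (a - 1) • S) :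
    (S + 1) * S = a • (S + 1) := by
  rw [add_mul, hS, one_mul]
  module

theorem add_one_sq' (hS : S * S = a • (1 : Matrix X X ℝ) + (a - 1) • S) :
    (S + 1) * (S + 1) = (a + 1) • (S + 1) := by
  rw [add_mul, mul_add_one hS, one_mul]
  module

theorem gam_succ (hS : S * S = a • (1 : Matrix X X ℝ) + (a - 1) • S) (i : ℕ) :
    gam S T (i + 1) = a • ((S + 1) * (T * S) ^ i * T * (S + 1)) := by
  rw [gam, pow_succ, ← mul_smul_comm, ← mul_add_one hS]
  simp only [mul_assoc]

theorem gam_mul_P (hS : S * S = a • (1 : Matrix X X ℝ) + (a - 1) • S) (i : ℕ) :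
    gam S T i * (S + 1) = (a + 1) • gam S T i := by
  rw [gam, mul_assoc, add_one_sq' hS, mul_smul_comm]

theorem gam_rec (hS : S * S = a • (1 : Matrix X X ℝ) + (a - 1) • S)
    (hT : T * T = b • (1 : Matrix X X ℝ) + (b - 1) • T) (i : ℕ) :
    gam S T (i + 1) * ((T + 1) * (S + 1)) =
      gam S T (i + 2) + (a + b) • gam S T (i + 1) + (a * b) • gam S T i := by
  rw [gam_succ hS (i + 1), gam_succ hS i, gam, pow_succ]
  set A := (S + 1) * (T * S) ^ i with hA
  have e1 : (S + 1) * ((T * S) ^ i * (T * S)) = A * (T * S) := by rw [hA, mul_assoc]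
  have e2 : A * T * (S + 1) * ((T + 1) * (S + 1)) = A * (T * S) * T * (S + 1) +
      A * T * (S * (S + 1)) + A * (T * (T + 1)) * (S + 1) := by noncomm_ring
  rw [e1, smul_mul_assoc, e2, mul_add_one hS, mul_add_one hT]
  simp only [mul_smul_comm, smul_mul_assoc, mul_add A T 1, mul_one]
  rw [add_mul (A * T) A]
  module

theorem gam_zero_rec (hS : S * S = a • (1 : Matrix X X ℝ) + (a - 1) • S) :
    a • (gam S T 0 * ((T + 1) * (S + 1))) = (a + 1) • (gam S T 1 + a • gam S T 0) := by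
  rw [gam_succ hS 0, gam, pow_zero, mul_one, add_one_sq' hS]
  have e2 : (S + 1) * ((T + 1) * (S + 1)) = (S + 1) * T * (S + 1) + (S + 1) * (S + 1) := by
    noncomm_ring
  rw [smul_mul_assoc, e2, add_one_sq' hS]
  module

theorem trace_gam_zero (hS : S * S = a • (1 : Matrix X X ℝ) + (a - 1) • S) (hS0 : S.trace = 0) :
    (gam S T 0).trace = (a + 1) * Fintype.card X := by
  rw [gam, pow_zero, mul_one, add_one_sq' hS, trace_smul, trace_add, hS0, trace_one]
  simp

theorem trace_gam_succ (hS : S * S = a • (1 : Matrix X X ℝ) + (a - 1) • S) {i : ℕ}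
    (h1 : ((T * S) ^ (i + 1)).trace = 0) (h2 : ((T * S) ^ i * T).trace = 0) :
    (gam S T (i + 1)).trace = 0 := by
  rw [gam_succ hS, trace_smul, trace_mul_comm, ← mul_assoc, ← mul_assoc, add_one_sq' hS,
    smul_mul_assoc, smul_mul_assoc, trace_smul, mul_assoc, trace_mul_comm, mul_add, mul_one,
    trace_add, h2, mul_assoc, ← pow_succ, h1]
  simp

theorem k_gam_zero {k : Matrix X X ℝ} (h : k * (S + 1) = (a + 1) • k) {θ : ℝ}
    (hS : S * S = a • (1 : Matrix X X ℝ) + (a - 1) • S) (ha : a + 1 ≠ 0)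
    (hk : k * ((T + 1) * (S + 1)) = θ • k) :
    k * gam S T 0 = ((a + 1) ^ 2) • k ∧
      k * (gam S T 1 + a • gam S T 0) = (a * (a + 1) * θ) • k := by
  have h1 : k * gam S T 0 = ((a + 1) ^ 2) • k := by
    rw [gam, pow_zero, mul_one, ← mul_assoc, h, smul_mul_assoc, h, smul_smul, sq]
  refine ⟨h1, ?_⟩
  have h2 := congrArg (k * ·) (gam_zero_rec (T := T) hS)
  simp only [mul_smul_comm] at h2
  rw [← mul_assoc, h1, smul_mul_assoc, hk, smul_smul, smul_smul] at h2
  apply smul_right_injective _ ha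
  simp only
  rw [← h2, smul_smul]
  congr 1
  ring

theorem odd_case (hS : S * S = a • (1 : Matrix X X ℝ) + (a - 1) • S)
    (hT : T * T = a • (1 : Matrix X X ℝ) + (a - 1) • T) {A : ℕ} (hA : a = A) (ha : 1 < a)
    [Nonempty X] {m : ℕ} (hm : 1 ≤ m) (hbr : (T * S) ^ m * T = S * (T * S) ^ m) (hS0 : S.trace = 0)
    (h1 : ∀ i, i < m → ((T * S) ^ (i + 1)).trace = 0)
    (h2 : ∀ i, i < m → ((T * S) ^ i * T).trace = 0) : m = 1 := by
  have hN : 0 < Fintype.card X := Fintype.card_pos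
  set φ : ℝ := 2 * π / (2 * m + 1) with hφ
  have hm' : (1 : ℝ) ≤ m := by exact_mod_cast hm
  have hφ0 : 0 < φ := by positivity
  have hφ1 : φ < π := by
    rw [hφ, div_lt_iff₀ (by positivity)]
    nlinarith [pi_pos]
  have hφm : (2 * m + 1) * φ = 2 * π := by rw [hφ]; field_simp
  let p : ℕ → Matrix X X ℝ := fun i => match i with
    | 0 => (-a⁻¹) • (a ^ 2 • gam S T 0 - gam S T 1)
    | i + 1 => a ^ 2 • gam S T i - gam S T (i + 1)
  have ha0 : a ≠ 0 := by positivity
  have ha1 : a + 1 ≠ 0 := by positivity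
  have hz1 : sin ((((1 : ℕ) : ℝ) + -1 / 2) * φ) = sin (φ / 2) := by congr 1; push_cast; ring
  have hs : 0 < sin (φ / 2) := sin_pos_of_pos_of_lt_pi (by positivity) (by linarith [pi_pos])
  obtain ⟨r, hr⟩ := gauss' (x := (T + 1) * (S + 1) - (2 * a) • 1) (P := S + 1) (p := p)
    (z := fun i => sin (((i : ℝ) + -1 / 2) * φ)) (ρ := a) (θ := 2 * cos φ) (c := a + 1)
    (h := a * (a + 1) * ((a + 1) ^ 2 - (2 * a + a * (2 * cos φ)))) (M := m)
    (C := A ^ 2 * ((A + 1) * Fintype.card X)) ha0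
    (fun i => by
      rcases i with _ | i
      · have h3 := gam_zero_rec (T := T) hS
        have h4 := gam_rec hS hT 0
        have h5 : a ^ 2 • (-a⁻¹) • (a ^ 2 • gam S T 0 - gam S T 1) =
            (-a) • (a ^ 2 • gam S T 0 - gam S T 1) := by
          rw [smul_smul]; congr 1; field_simp
        simp only [p, zero_add] at h4 ⊢
        rw [h5, mul_sub, sub_mul, smul_mul_assoc, sq a, mul_smul, h3, h4, mul_smul_comm, mul_one]
        module
      · simp only [p]
        rw [mul_sub, sub_mul, smul_mul_assoc, gam_rec hS hT, gam_rec hS hT, mul_smul_comm, mul_one]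
        module)
    (fun i => sin_rec _ _ i)
    (by
      simp only [p]
      rw [gam_succ hS, mul_assoc (S + 1), hbr, ← mul_assoc, add_one_mul' hS, gam]
      simp only [smul_mul_assoc]
      module)
    (by
      have : (((m + 1 : ℕ) : ℝ) + -1 / 2) * φ = π := by push_cast; linarith
      simp only [this, sin_pi])
    (by
      have : sin ((((0 : ℕ) : ℝ) + -1 / 2) * φ) = -sin (φ / 2) := by
        rw [← sin_neg]; congr 1; push_cast; ring
      simp only [p, this, hz1]
      rw [smul_smul]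
      congr 1
      field_simp)
    (by simp only [hz1]; exact hs.ne') hm
    (by
      simp only [p]
      rw [trace_sub, trace_smul, trace_gam_zero hS hS0, trace_gam_succ hS (h1 0 hm) (h2 0 hm), hA]
      simp)
    (by
      have : A ≠ 0 := by rintro rfl; simp at hA; exact ha0 hA
      positivity)
    (fun i hi1 hi2 => by
      obtain ⟨i, rfl⟩ := Nat.exists_eq_add_of_le' hi1
      simp only [p]
      rw [trace_sub, trace_smul, trace_gam_succ hS (h1 i (by omega)) (h2 i (by omega)),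
        trace_gam_succ hS (h1 (i + 1) (by omega)) (h2 (i + 1) (by omega))]
      simp)
    (fun i => by
      rcases i with _ | i <;> simp only [p, smul_mul_assoc, sub_mul, gam_mul_P hS] <;> module)
    (fun k hk1 hk2 => by
      have hk3 : k * ((T + 1) * (S + 1)) = (2 * a + a * (2 * cos φ)) • k := by
        rw [mul_sub, mul_smul_comm, mul_one, sub_eq_iff_eq_add] at hk1
        rw [hk1]
        module
      obtain ⟨h3, h4⟩ := k_gam_zero hk2 hS ha1 hk3
      rw [mul_add, mul_smul_comm, h3, ← eq_sub_iff_add_eq] at h4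
      simp only [p, zero_add]
      rw [mul_sub, mul_smul_comm, h3, h4]
      module)
  have hsum := sin_sq_sum (-1 / 2) φ m
  have e1 : (2 * (m : ℝ) + 1 + 2 * (-1 / 2)) * φ = 2 * π - φ := by linarith
  have e2 : (1 + 2 * (-1 / 2 : ℝ)) * φ = 0 := by ring
  have hs' : 0 < sin φ := sin_pos_of_pos_of_lt_pi hφ0 hφ1
  rw [e1, e2, sin_two_pi_sub, sin_zero] at hsum
  have hsum' : ∑ i ∈ range m, sin ((((i + 1 : ℕ) : ℝ) + -1 / 2) * φ) ^ 2 = (2 * m + 1) / 4 := by
    apply mul_left_cancel₀ (a := 4 * sin φ) (by positivity)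
    rw [hsum]
    ring
  simp only [hz1] at hr
  rw [hsum', sin_sq_eq_half_sub, show 2 * (φ / 2) = φ by ring] at hr
  have hc1 : 0 < 1 - cos φ := by
    have := sin_sq_eq_half_sub (φ / 2)
    rw [show 2 * (φ / 2) = φ by ring] at this
    nlinarith
  set K : ℚ := A * (A + 1) * (2 * m + 1) / 4 with hK
  have hK' : (K : ℝ) = a * (a + 1) * (2 * m + 1) / 4 := by rw [hK, hA]; push_cast; ring
  have hKpos : (0 : ℝ) < K := by rw [hK']; positivity
  have h3 : (K : ℝ) * (a - 1) ^ 2 = (r / 2 - 2 * a * K) * (1 - cos φ) := by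
    rw [hK']
    linarith
  have h4 : (r / 2 - 2 * a * K : ℝ) ≠ 0 := by
    intro h0
    rw [h0, zero_mul] at h3
    have : 0 < (K : ℝ) * (a - 1) ^ 2 := by
      have : 0 < a - 1 := by linarith
      positivity
    linarith
  have h5 : ∃ q : ℚ, cos ((2 / (2 * m + 1) : ℚ) * π) = q := by
    refine ⟨1 - K * (A - 1) ^ 2 / (r / 2 - 2 * A * K), ?_⟩
    have : ((2 / (2 * m + 1) : ℚ) : ℝ) * π = φ := by rw [hφ]; push_cast; ring
    rw [this]
    push_cast
    rw [← hA, h3, mul_div_cancel_left₀ _ h4]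
    ring
  have hm'' : (1 : ℚ) ≤ m := by exact_mod_cast hm
  have h6 := niven_angle_div_pi_eq h5 ⟨by positivity, by
    rw [div_le_one (by positivity)]; linarith⟩
  simp only [Set.mem_insert_iff, Set.mem_singleton_iff] at h6
  have h7 : (2 * m + 1 : ℚ) ≠ 0 := by positivity
  rcases h6 with h6 | h6 | h6 | h6 | h6 <;> field_simp at h6 <;> norm_cast at h6 <;> omega

theorem even_aux (hS : S * S = a • (1 : Matrix X X ℝ) + (a - 1) • S)
    (hT : T * T = b • (1 : Matrix X X ℝ) + (b - 1) • T) {A B : ℕ} (hA : a = A) (hB : b = B)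
    (ha : 1 < a) (hb : 1 < b) [Nonempty X] {m : ℕ} (hm : 1 ≤ m)
    (hbr : (T * S) ^ (m + 1) = S * (T * S) ^ m * T) (hS0 : S.trace = 0)
    (h1 : ∀ i, i ≤ m → ((T * S) ^ (i + 1)).trace = 0)
    (h2 : ∀ i, i ≤ m → ((T * S) ^ i * T).trace = 0) {j : ℕ} (hj0 : 0 < j) (hj : j ≤ m) :
    ∃ r : ℚ, a * (b - 1) ^ 2 + b * (a - 1) ^ 2 +
      2 * √(a * b) * (a - 1) * (b - 1) * cos (π * j / (m + 1)) = r * sin (π * j / (m + 1)) ^ 2 := by
  have hN : 0 < Fintype.card X := Fintype.card_pos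
  set φ : ℝ := π * j / (m + 1) with hφ
  have hj' : (j : ℝ) ≤ m := by exact_mod_cast hj
  have hφ0 : 0 < φ := by positivity
  have hφ1 : φ < π := by
    rw [hφ, div_lt_iff₀ (by positivity)]
    nlinarith [pi_pos]
  have hφm : (m + 1) * φ = j * π := by rw [hφ]; field_simp
  set ρ := √(a * b) with hρ
  have ha0 : a ≠ 0 := by positivity
  have ha1 : a + 1 ≠ 0 := by positivity
  have hρ2 : ρ ^ 2 = a * b := sq_sqrt (by positivity)
  have hρ0 : ρ ≠ 0 := by positivity
  let u : ℕ → Matrix X X ℝ := fun i => gam S T (i + 1) + a • gam S T i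
  have hu : ∀ i, u (i + 1) * ((T + 1) * (S + 1)) =
      u (i + 2) + (a + b) • u (i + 1) + (a * b) • u i := by
    intro i
    simp only [u]
    rw [add_mul, smul_mul_assoc, gam_rec hS hT, gam_rec hS hT]
    module
  have hu0 : u 0 * ((T + 1) * (S + 1)) = u 1 + (a + b + 1) • u 0 := by
    simp only [u]
    rw [add_mul, smul_mul_assoc, gam_rec hS hT, gam_zero_rec hS]
    module
  have hut : ∀ i, i < m → (u (i + 1)).trace = 0 := by
    intro i hi
    simp only [u]
    rw [trace_add, trace_smul, trace_gam_succ hS (h1 i hi.le) (h2 i hi.le),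
      trace_gam_succ hS (h1 (i + 1) hi) (h2 (i + 1) hi)]
    simp
  let p : ℕ → Matrix X X ℝ := fun i => match i with
    | 0 => 0
    | i + 1 => (a * b) • u i - u (i + 1)
  have hz1 : sin ((((1 : ℕ) : ℝ) + 0) * φ) = sin φ := by congr 1; push_cast; ring
  have hs : 0 < sin φ := sin_pos_of_pos_of_lt_pi hφ0 hφ1
  obtain ⟨r, hr⟩ := gauss' (x := (T + 1) * (S + 1) - (a + b) • 1) (P := S + 1) (p := p)
    (z := fun i => sin (((i : ℝ) + 0) * φ)) (ρ := ρ) (θ := 2 * cos φ) (c := a + 1)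
    (h := a * (a + 1) * (a + b + ρ * (2 * cos φ)) * (a * b + 1 - ρ * (2 * cos φ))) (M := m)
    (C := A * B * (A * ((A + 1) * Fintype.card X))) hρ0
    (fun i => by
      rcases i with _ | i
      · have h4 := hu 0
        simp only [p, zero_add] at h4 ⊢
        rw [mul_sub, sub_mul, smul_mul_assoc, hu0, h4, mul_smul_comm, mul_one]
        module
      · simp only [p]
        rw [mul_sub, sub_mul, smul_mul_assoc, hu, hu, mul_smul_comm, mul_one, hρ2]
        module)
    (fun i => sin_rec _ _ i)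
    (by
      have e : ∀ i, u i = a • ((S + 1) * (T * S) ^ i * (T + 1) * (S + 1)) := by
        intro i
        simp only [u]
        rw [gam_succ hS, gam, mul_add _ T, add_mul _ _ (S + 1), mul_one, smul_add]
      simp only [p]
      rw [e, e, hbr, ← mul_assoc, ← mul_assoc, add_one_mul' hS, smul_mul_assoc, smul_mul_assoc,
        smul_mul_assoc, mul_assoc _ T, mul_add_one hT]
      simp only [smul_mul_assoc, mul_smul_comm]
      module)
    (by
      have : (((m + 1 : ℕ) : ℝ) + 0) * φ = j * π := by push_cast; linarith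
      simp only [this, sin_nat_mul_pi])
    (by simp [p])
    (by simp only [hz1]; exact hs.ne') hm
    (by
      simp only [p]
      rw [trace_sub, trace_smul, hut 0 hm]
      simp only [u]
      rw [trace_add, trace_smul, trace_gam_zero hS hS0,
        trace_gam_succ hS (h1 0 (by omega)) (h2 0 (by omega)), hA, hB]
      simp)
    (by
      have : A ≠ 0 := by rintro rfl; simp at hA; exact ha0 hA
      have : B ≠ 0 := by rintro rfl; simp at hB; linarith
      positivity)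
    (fun i hi1 hi2 => by
      obtain ⟨i, rfl⟩ := Nat.exists_eq_add_of_le' hi1
      simp only [p]
      rw [trace_sub, trace_smul, hut i (by omega), hut (i + 1) (by omega)]
      simp)
    (fun i => by
      rcases i with _ | i
      · simp [p]
      · simp only [p, u, smul_mul_assoc, sub_mul, add_mul _ _ (S + 1), gam_mul_P hS]
        module)
    (fun k hk1 hk2 => by
      have hk3 : k * ((T + 1) * (S + 1)) = (a + b + ρ * (2 * cos φ)) • k := by
        rw [mul_sub, mul_smul_comm, mul_one, sub_eq_iff_eq_add] at hk1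
        rw [hk1]
        module
      have h4 : k * u 0 = _ := (k_gam_zero hk2 hS ha1 hk3).2
      have h5 : u 1 = u 0 * ((T + 1) * (S + 1)) - (a + b + 1) • u 0 := by rw [hu0]; abel
      simp only [p, zero_add]
      rw [h5, mul_sub, mul_sub, mul_smul_comm, mul_smul_comm, ← mul_assoc, h4, smul_mul_assoc, hk3]
      module)
  have hsum := sin_sq_sum 0 φ m
  have e1 : (2 * (m : ℝ) + 1 + 2 * 0) * φ = j * (2 * π) - φ := by linarith
  have e2 : (1 + 2 * (0 : ℝ)) * φ = φ := by ring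
  rw [e1, e2, sin_nat_mul_two_pi_sub] at hsum
  have hsum' : ∑ i ∈ range m, sin ((((i + 1 : ℕ) : ℝ) + 0) * φ) ^ 2 = (m + 1) / 2 := by
    apply mul_left_cancel₀ (a := 4 * sin φ) (by positivity)
    rw [hsum]
    ring
  simp only [hz1] at hr
  rw [hsum'] at hr
  refine ⟨r / (A * (A + 1) * ((m + 1) / 2)) - 4 * A * B, ?_⟩
  push_cast
  rw [← hA, ← hB, sub_mul, div_mul_eq_mul_div, ← hr]
  field_simp
  rw [sin_sq]
  linear_combination (4 * cos φ ^ 2) * hρ2

theorem even_case (hS : S * S = a • (1 : Matrix X X ℝ) + (a - 1) • S)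
    (hT : T * T = b • (1 : Matrix X X ℝ) + (b - 1) • T) {A B : ℕ} (hA : a = A) (hB : b = B)
    (ha : 1 < a) (hb : 1 < b) [Nonempty X] {m : ℕ} (hm : 1 ≤ m)
    (hbr : (T * S) ^ (m + 1) = S * (T * S) ^ m * T) (hS0 : S.trace = 0)
    (h1 : ∀ i, i ≤ m → ((T * S) ^ (i + 1)).trace = 0)
    (h2 : ∀ i, i ≤ m → ((T * S) ^ i * T).trace = 0) : m = 1 ∨ m = 2 ∨ m = 3 := by
  have hK : 0 < a * (b - 1) ^ 2 + b * (a - 1) ^ 2 := by
    have : 0 < a - 1 := by linarith
    have : 0 < b - 1 := by linarith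
    positivity
  have key : ∀ j : ℕ, 0 < j → j ≤ m → (∃ q : ℚ, sin (π * j / (m + 1)) ^ 2 = q) ∧
      ∃ q : ℚ, √(a * b) * cos (π * j / (m + 1)) = q := by
    intro j hj0 hj
    obtain ⟨r, hr⟩ := even_aux hS hT hA hB ha hb hm hbr hS0 h1 h2 hj0 hj
    obtain ⟨r', hr'⟩ := even_aux hS hT hA hB ha hb hm hbr hS0 h1 h2 (j := m + 1 - j) (by omega)
      (by omega)
    have e : π * ((m + 1 - j : ℕ) : ℝ) / (m + 1) = π - π * j / (m + 1) := by
      rw [Nat.cast_sub (by omega)]
      push_cast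
      field_simp
    rw [e, sin_pi_sub, cos_pi_sub] at hr'
    have h3 : 2 * (a * (b - 1) ^ 2 + b * (a - 1) ^ 2) = (r + r') * sin (π * j / (m + 1)) ^ 2 := by
      linarith
    have h4 : (r + r' : ℝ) ≠ 0 := by
      intro h0
      rw [h0, zero_mul] at h3
      linarith
    have h5 : sin (π * j / (m + 1)) ^ 2 =
        ((2 * (A * (B - 1) ^ 2 + B * (A - 1) ^ 2) / (r + r') : ℚ) : ℝ) := by
      push_cast
      rw [← hA, ← hB, h3]
      field_simp
    refine ⟨⟨_, h5⟩, (r * (2 * (A * (B - 1) ^ 2 + B * (A - 1) ^ 2) / (r + r')) -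
      (A * (B - 1) ^ 2 + B * (A - 1) ^ 2)) / (2 * (A - 1) * (B - 1)), ?_⟩
    rw [h5] at hr
    push_cast at hr ⊢
    rw [← hA, ← hB] at hr ⊢
    rw [← hr]
    have : a - 1 ≠ 0 := by linarith
    have : b - 1 ≠ 0 := by linarith
    field_simp
    ring
  have hm' : (1 : ℚ) ≤ m := by exact_mod_cast hm
  obtain ⟨q, hq⟩ := (key 1 one_pos hm).1
  have h5 : ∃ q : ℚ, cos ((2 / (m + 1) : ℚ) * π) = q := by
    refine ⟨1 - 2 * q, ?_⟩
    have : ((2 / (m + 1) : ℚ) : ℝ) * π = 2 * (π * (1 : ℕ) / (m + 1)) := by push_cast; ring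
    rw [this, cos_two_mul, cos_sq', hq]
    push_cast
    ring
  have h6 := niven_angle_div_pi_eq h5 ⟨by positivity, by
    rw [div_le_one (by positivity)]; linarith⟩
  simp only [Set.mem_insert_iff, Set.mem_singleton_iff] at h6
  have h7 : (m + 1 : ℚ) ≠ 0 := by positivity
  have h8 : m = 1 ∨ m = 2 ∨ m = 3 ∨ m = 5 := by
    rcases h6 with h6 | h6 | h6 | h6 | h6 <;> field_simp at h6 <;> norm_cast at h6 <;> omega
  have h9 : m ≠ 5 := by
    rintro rfl
    obtain ⟨q1, hq1⟩ := (key 1 one_pos (by norm_num)).2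
    obtain ⟨q2, hq2⟩ := (key 2 two_pos (by norm_num)).2
    have e1 : π * ((1 : ℕ) : ℝ) / ((5 : ℕ) + 1) = π / 6 := by push_cast; ring
    have e2 : π * ((2 : ℕ) : ℝ) / ((5 : ℕ) + 1) = π / 3 := by push_cast; ring
    rw [e1, cos_pi_div_six] at hq1
    rw [e2, cos_pi_div_three] at hq2
    have hρ : √(a * b) ≠ 0 := by positivity
    refine (Nat.Prime.irrational_sqrt Nat.prime_three) ⟨q1 / q2, ?_⟩
    push_cast
    rw [← hq1, ← hq2]
    field_simp
  omega

end Hecke

end CfsgLib.FH
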