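import Mathlib
import Cfsg.Agent.Lib.FH.Alg
import Cfsg.Agent.Lib.BN.Basic
import Cfsg.Agent.Lib.BN.Matsumoto
import Cfsg.Agent.Lib.Invol.Dihedral

/-!
# The Feit–Higman theorem for finite `(B, N)`-pairs

For distinguished generators `s ≠ t` of a finite `(B, N)`-pair the order of `s t` in the Weyl group
is `2, 3, 4, 6` or `8` (`orderOf_mem`), via the Hecke operators `Tm w` on `G ⧸ B`.
-/

set_option autoImplicit false

namespace CfsgLib.FH

open Cfsg CfsgLib.BN Matrix Finset

theorem eq_alt_of_prefix {B : Type*} (l₁ : List B) : ∀ (p q : B) (k : ℕ) (l₂ : List B),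
    alt p q k = l₁ ++ l₂ → l₁ = alt p q l₁.length := by
  induction l₁ with
  | nil => intros; rfl
  | cons x l ih =>
    intro p q k l₂ h
    rcases k with _ | k
    · simp at h
    · rw [alt_succ, List.cons_append, List.cons.injEq] at h
      rw [List.length_cons, alt_succ, ← ih q p k l₂ h.2, h.1]

theorem red_alt {B W : Type*} [Group W] (E : ExchSys B W) (k : ℕ) : ∀ p q : B,
    k ≤ orderOf (E.s p * E.s q) → E.Red (alt p q k) := by
  induction k with
  | zero => intros; exact E.red_nil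
  | succ k ih =>
    intro p q hk
    have e : orderOf (E.s q * E.s p) = orderOf (E.s p * E.s q) := by
      rw [← orderOf_inv, _root_.mul_inv_rev, E.s_inv, E.s_inv]
    rw [alt_succ]
    refine (ih q p (by omega)).cons ?_
    by_contra hP
    obtain ⟨l₁, j, l₂, h1, h2⟩ := E.exch_of_not_P p _ hP
    have h3 := eq_alt_of_prefix l₁ _ _ _ _ h1
    have h4 := eq_alt_of_prefix (l₁ ++ [j]) q p k l₂ (by rw [h1]; simp)
    have h5 : l₁.length < k := by
      have := congrArg List.length h1
      simp at this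
      omega
    rw [← E.wp_cons, ← E.wp_concat, h4, List.length_append, List.length_singleton] at h2
    conv_lhs at h2 => rw [h3, ← alt_succ]
    have h6 := (alt_prod_eq_iff E.s p q (E.sq p) (E.sq q) _).1 h2
    have := Nat.le_of_dvd (Nat.succ_pos _) (orderOf_dvd_of_pow_eq_one h6)
    omega

variable {G : Type*} [Group G] {P : BNPair G}

/-- The Weyl distance relation on `G ⧸ B`. -/
def Rel (w : W P) (x y : G ⧸ P.B) : Prop := x.out⁻¹ * y.out ∈ cell P w

theorem rel_mk {w : W P} {g h : G} : Rel w (g : G ⧸ P.B) (h : G ⧸ P.B) ↔ g⁻¹ * h ∈ cell P w := by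
  obtain ⟨b, hb⟩ := QuotientGroup.mk_out_eq_mul P.B g
  obtain ⟨c, hc⟩ := QuotientGroup.mk_out_eq_mul P.B h
  rw [Rel, hb, hc, _root_.mul_inv_rev, mul_assoc, B_mul_mem_cell_iff (inv_mem b.2), ← mul_assoc,
    mul_B_mem_cell_iff c.2]

theorem rel_one {x y : G ⧸ P.B} : Rel 1 x y ↔ x = y := by
  rw [Rel, mem_cell_one, ← QuotientGroup.eq, QuotientGroup.out_eq', QuotientGroup.out_eq']

theorem Rel.unique {v w : W P} {x y : G ⧸ P.B} (h1 : Rel v x y) (h2 : Rel w x y) : v = w :=
  cell_unique h1 h2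

theorem Rel.symm {s : P.S} {x y : G ⧸ P.B} (h : Rel (sW P s) x y) : Rel (sW P s) y x := by
  have := inv_mem_cell h
  rwa [sW_inv, _root_.mul_inv_rev, inv_inv] at this

theorem Rel.ne {w : W P} (hw : w ≠ 1) {x y : G ⧸ P.B} (h : Rel w x y) : x ≠ y :=
  fun e => hw (h.unique (rel_one.2 e))

theorem Rel.trans_s {s : P.S} {x y z : G ⧸ P.B} (h1 : Rel (sW P s) x y) (h2 : Rel (sW P s) y z) :
    x = z ∨ Rel (sW P s) x z := by
  have := cell_s_mul s h1 h2
  rw [sW_sq, mul_assoc, mul_inv_cancel_left] at this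
  exact this.imp_left rel_one.1

theorem Rel.trans_P {s : P.S} {w : W P} (h : (exch P).P s w) {x y z : G ⧸ P.B}
    (h1 : Rel (sW P s) x y) (h2 : Rel w y z) : Rel (sW P s * w) x z := by
  have := h _ h1 _ h2
  rwa [mul_assoc, mul_inv_cancel_left] at this

theorem Rel.exists_mid {v w : W P} {x z : G ⧸ P.B} (h : Rel (v * w) x z) :
    ∃ y, Rel v x y ∧ Rel w y z := by
  obtain ⟨n, hn, rfl⟩ := cls_surj P v
  obtain ⟨m, hm, rfl⟩ := cls_surj P w
  rw [Rel, ← cls_mul, mem_cell_cls] at h
  obtain ⟨b, hb, c, hc, h⟩ := h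
  refine ⟨(x.out * b * n : G), ?_, ?_⟩
  · rw [← QuotientGroup.out_eq' x, rel_mk, QuotientGroup.out_eq', mul_assoc, inv_mul_cancel_left]
    exact B_mul_mem_cell hb (self_mem_cell P hn)
  · rw [← QuotientGroup.out_eq' z, rel_mk]
    have : (x.out * b * n)⁻¹ * z.out = m * c := by
      rw [inv_mul_eq_iff_eq_mul] at h
      rw [h]
      group
    rw [this]
    exact mul_B_mem_cell (self_mem_cell P hm) hc

theorem rel_smul {w : W P} (g : G) {x y : G ⧸ P.B} : Rel w (g • x) (g • y) ↔ Rel w x y := by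
  obtain ⟨x, rfl⟩ := QuotientGroup.mk_surjective x
  obtain ⟨y, rfl⟩ := QuotientGroup.mk_surjective y
  rw [MulAction.Quotient.smul_coe, MulAction.Quotient.smul_coe, rel_mk, rel_mk, smul_eq_mul,
    smul_eq_mul, _root_.mul_inv_rev, mul_assoc, inv_mul_cancel_left]

open Classical in
/-- The Hecke operator of `w`. -/
noncomputable def Tm (w : W P) : Matrix (G ⧸ P.B) (G ⧸ P.B) ℝ :=
  Matrix.of fun x y => if Rel w x y then 1 else 0

variable [Fintype (G ⧸ P.B)] [DecidableEq (G ⧸ P.B)]

omit [Fintype (G ⧸ P.B)] in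
theorem Tm_one : Tm (1 : W P) = 1 := by
  ext x y
  simp [Tm, rel_one, one_apply]

omit [DecidableEq (G ⧸ P.B)] in
theorem trace_Tm {w : W P} (hw : w ≠ 1) : (Tm w).trace = 0 :=
  sum_eq_zero fun x _ => by
    have : ¬ Rel w x x := fun h => h.ne hw rfl
    simp [Tm, this]

open Classical in
omit [DecidableEq (G ⧸ P.B)] in
theorem Tm_mul_apply (v w : W P) (x z : G ⧸ P.B) :
    (Tm v * Tm w) x z = (univ.filter fun y => Rel v x y ∧ Rel w y z).card := by
  rw [mul_apply, card_filter]
  push_cast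
  refine sum_congr rfl fun y _ => ?_
  by_cases h1 : Rel v x y <;> by_cases h2 : Rel w y z <;> simp [Tm, h1, h2]

omit [DecidableEq (G ⧸ P.B)] in
theorem Tm_s_mul {s : P.S} {w : W P} (h : (exch P).P s w) :
    Tm (sW P s) * Tm w = Tm (sW P s * w) := by
  classical
  ext x z
  rw [Tm_mul_apply]
  by_cases hxz : Rel (sW P s * w) x z
  · obtain ⟨y, hy⟩ := hxz.exists_mid
    have : (univ.filter fun y => Rel (sW P s) x y ∧ Rel w y z) = {y} := by
      ext y'
      simp only [mem_filter, mem_univ, true_and, mem_singleton]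
      refine ⟨fun hy' => ?_, fun e => e ▸ hy⟩
      rcases hy'.1.symm.trans_s hy.1 with e | e
      · exact e
      · exact absurd (mul_eq_right.1 ((e.trans_P h hy.2).unique hy'.2)) (sW_ne_one s)
    rw [this]
    simp [Tm, hxz]
  · rw [filter_false_of_mem fun y _ hy => hxz (hy.1.trans_P h hy.2)]
    simp [Tm, hxz]

theorem prod_Tm {l : List P.S} (h : (exch P).Red l) :
    (l.map fun s => Tm (sW P s)).prod = Tm ((exch P).wp l) := by
  induction l with
  | nil => simp [Tm_one]
  | cons s l ih => rw [List.map_cons, List.prod_cons, ih h.tail, Tm_s_mul h.P_cons]; rfl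

open Classical in
/-- The size of a panel minus one. -/
noncomputable def qq (s : P.S) : ℕ := (univ.filter fun y => Rel (sW P s) ((1 : G) : G ⧸ P.B) y).card

open Classical in
omit [DecidableEq (G ⧸ P.B)] in
theorem card_rel (s : P.S) (x : G ⧸ P.B) : (univ.filter fun y => Rel (sW P s) x y).card = qq s := by
  obtain ⟨g, rfl⟩ := QuotientGroup.mk_surjective x
  refine (card_bijective (g • ·) (MulAction.bijective g) fun y => ?_).symm
  have : ((g : G) : G ⧸ P.B) = g • ((1 : G) : G ⧸ P.B) := by simp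
  simp only [mem_filter, mem_univ, true_and]
  rw [this, rel_smul]

omit [DecidableEq (G ⧸ P.B)] in
theorem one_lt_qq (s : P.S) : 1 < qq s := by
  classical
  obtain ⟨b, hb, h⟩ := exists_sbs_mem s
  refine one_lt_card.2 ⟨((s : G) : G ⧸ P.B), ?_, ((s * b * s : G) : G ⧸ P.B), ?_, fun e => ?_⟩
  · simp only [mem_filter, mem_univ, true_and, rel_mk, inv_one, one_mul]
    exact S_mem_cell s
  · simp only [mem_filter, mem_univ, true_and, rel_mk, inv_one, one_mul]
    exact h
  · rw [QuotientGroup.eq, mul_assoc, inv_mul_cancel_left] at e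
    exact S_not_mem_B s.2 (by simpa using mul_mem (inv_mem hb) e)

theorem Tm_sq (s : P.S) : Tm (sW P s) * Tm (sW P s) =
    (qq s : ℝ) • (1 : Matrix (G ⧸ P.B) (G ⧸ P.B) ℝ) + ((qq s : ℝ) - 1) • Tm (sW P s) := by
  classical
  ext x z
  rw [Tm_mul_apply]
  by_cases hxz : x = z
  · subst hxz
    have h1 : ¬ Rel (sW P s) x x := fun h => h.ne (sW_ne_one s) rfl
    rw [filter_congr (q := fun y => Rel (sW P s) x y) fun y _ => ⟨fun h => h.1, fun h => ⟨h, h.symm⟩⟩,
      card_rel]
    simp [Tm, h1]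
  by_cases h : Rel (sW P s) x z
  · have : (univ.filter fun y => Rel (sW P s) x y ∧ Rel (sW P s) y z) =
        (univ.filter fun y => Rel (sW P s) x y).erase z := by
      ext y
      simp only [mem_filter, mem_univ, true_and, mem_erase]
      exact ⟨fun hy => ⟨hy.2.ne (sW_ne_one s), hy.1⟩,
        fun hy => ⟨hy.2, (hy.2.symm.trans_s h).resolve_left hy.1⟩⟩
    rw [this, card_erase_of_mem (by simpa using h), card_rel, Nat.cast_sub (one_lt_qq s).le]
    simp [Tm, h, hxz]
  · rw [filter_false_of_mem fun y _ hy => h ((hy.1.trans_s hy.2).resolve_left hxz)]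
    simp [Tm, h, hxz]

omit [DecidableEq (G ⧸ P.B)] in
theorem Tm_mulVec (s : P.S) : Tm (sW P s) *ᵥ (fun _ => (1 : ℝ)) = (qq s : ℝ) • fun _ => 1 := by
  classical
  ext x
  rw [← card_rel s x, card_filter]
  simp [mulVec, dotProduct, Tm]

omit [Fintype (G ⧸ P.B)] [DecidableEq (G ⧸ P.B)] in
theorem orderOf_mem [Finite G] {s t : P.S} (hst : s ≠ t) :
    orderOf (sW P t * sW P s) ∈ ({2, 3, 4, 6, 8} : Set ℕ) := by
  classical
  have := Fintype.ofFinite (G ⧸ P.B)
  set n := orderOf (sW P t * sW P s) with hn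
  have hn' : orderOf (sW P s * sW P t) = n := by
    rw [← orderOf_inv, _root_.mul_inv_rev, sW_inv, sW_inv]
  have hn0 : 0 < n := orderOf_pos _
  have hn1 : n ≠ 1 := by
    intro h
    have h1 := eq_inv_of_mul_eq_one_left (orderOf_eq_one_iff.1 h)
    rw [sW_inv] at h1
    exact hst (sW_injective h1).symm
  set S := Tm (sW P s)
  set T := Tm (sW P t)
  let g : P.S → Matrix (G ⧸ P.B) (G ⧸ P.B) ℝ := fun s => Tm (sW P s)
  have tr : ∀ (p q : P.S) (k : ℕ), 0 < k → k ≤ orderOf (sW P p * sW P q) →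
      ((alt p q k).map g).prod.trace = 0 := by
    intro p q k hk0 hk
    have h1 := red_alt (exch P) k p q hk
    rw [prod_Tm h1]
    refine trace_Tm fun h2 => ?_
    rw [ExchSys.Red, h2, ExchSys.len_one, length_alt] at h1
    omega
  have br : ((alt t s n).map g).prod = ((alt s t n).map g).prod := by
    rw [prod_Tm (red_alt (exch P) n t s le_rfl), prod_Tm (red_alt (exch P) n s t hn'.ge)]
    congr 1
    exact (alt_prod_eq_iff _ t s (sW_sq t) (sW_sq s) n).2 (pow_orderOf_eq_one _)
  have e1 : ∀ i, ((alt t s (2 * i)).map g).prod = (T * S) ^ i := prod_map_alt_two_mul g t s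
  have e2 : ∀ i, ((alt t s (2 * i + 1)).map g).prod = (T * S) ^ i * T := by
    intro i
    rw [alt_succ_right, if_pos (even_two_mul i), List.map_append, List.prod_append, e1]
    simp [g, T]
  have hS0 : S.trace = 0 := trace_Tm (sW_ne_one s)
  have h1 : ∀ i, 2 * (i + 1) ≤ n → ((T * S) ^ (i + 1)).trace = 0 := fun i hi => by
    rw [← e1]; exact tr t s _ (by omega) hi
  have h2 : ∀ i, 2 * i + 1 ≤ n → ((T * S) ^ i * T).trace = 0 := fun i hi => by
    rw [← e2]; exact tr t s _ (by omega) hi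
  have ha : (1 : ℝ) < qq s := by exact_mod_cast one_lt_qq s
  have hb : (1 : ℝ) < qq t := by exact_mod_cast one_lt_qq t
  simp only [Set.mem_insert_iff, Set.mem_singleton_iff]
  rcases Nat.even_or_odd' n with ⟨m, hm | hm⟩
  · obtain ⟨m, rfl⟩ : ∃ k, m = k + 1 := ⟨m - 1, by omega⟩
    rcases Nat.eq_zero_or_pos m with rfl | hm0
    · omega
    rw [hm, e1, show 2 * (m + 1) = 2 * m + 1 + 1 by ring, alt_succ, List.map_cons, List.prod_cons,
      e2, ← mul_assoc] at br
    have := even_case (Tm_sq s) (Tm_sq t) rfl rfl ha hb hm0 br hS0 (fun i hi => h1 i (by omega))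
      (fun i hi => h2 i (by omega))
    omega
  · rw [hm, e2, alt_succ, List.map_cons, List.prod_cons, e1] at br
    have hv : ∀ i, (T * S) ^ i *ᵥ (fun _ => (1 : ℝ)) = ((qq t : ℝ) * qq s) ^ i • fun _ => 1 := by
      intro i
      induction i with
      | zero => simp
      | succ i ih =>
        rw [pow_succ, ← mulVec_mulVec, ← mulVec_mulVec, Tm_mulVec, mulVec_smul, Tm_mulVec,
          mulVec_smul, mulVec_smul, ih, smul_smul, smul_smul]
        congr 1
        ring
    have hab : (qq t : ℝ) = qq s := by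
      have h3 := congrArg (· *ᵥ (fun _ => (1 : ℝ))) br
      simp only [← mulVec_mulVec] at h3
      rw [Tm_mulVec, mulVec_smul, hv, mulVec_smul, Tm_mulVec, smul_smul, smul_smul] at h3
      have h4 := congrFun h3 ((1 : G) : G ⧸ P.B)
      simp only [Pi.smul_apply, smul_eq_mul, mul_one] at h4
      rw [mul_comm] at h4
      exact mul_left_cancel₀ (by positivity) h4
    have hT := Tm_sq t
    rw [hab] at hT
    have := odd_case (Tm_sq s) hT rfl ha (m := m) (by omega) br hS0 (fun i hi => h1 i (by omega))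
      (fun i hi => h2 i (by omega))
    omega

theorem card_of_two_involutions {W : Type*} [Group W] {x y : W} (hx : orderOf x = 2)
    (hy : orderOf y = 2) (h : Subgroup.closure ({x, y} : Set W) = ⊤) :
    Nat.card W = 2 * orderOf (x * y) := by
  have h1 := Invol.not_mem_zpowers_mul hx hy
  have hx' := Invol.mul_self_of_orderOf_two hx
  have h2 : (Subgroup.zpowers (x * y)).index = 2 := by
    refine Subgroup.index_eq_two_iff'.2 ⟨x, fun d => ?_⟩
    obtain ⟨k, rfl | rfl⟩ := (Invol.mem_closure_pair_iff hx' (Invol.mul_self_of_orderOf_two hy)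
      d).1 (h ▸ Subgroup.mem_top d)
    · exact Or.inr ⟨Subgroup.zpow_mem_zpowers _ _, fun h3 => h1
        ((Subgroup.mul_mem_cancel_right _ (Subgroup.zpow_mem_zpowers _ k)).1 h3)⟩
    · refine Or.inl ⟨?_, fun h3 => h1
        ((Subgroup.mul_mem_cancel_right _ (Subgroup.zpow_mem_zpowers _ k)).1 h3)⟩
      rw [← mul_assoc, hx', one_mul]
      exact Subgroup.zpow_mem_zpowers _ _
  rw [← (Subgroup.zpowers (x * y)).index_mul_card, h2, Nat.card_zpowers]

end CfsgLib.FH
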